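import Cfsg.Agent.H203.IF.Heis
import Cfsg.Agent.H203.IF.TE6
import Cfsg.Agent.H255.IF.Key
import Cfsg.Agent.H752.RgdIdx

/-!
# S5719, `²E₆(q)`, `q` even: the special group of the highest root (helper441)

* `heis`, `sp`, `card_Q` : `Q = ⟨X z | z 0 ≥ 1⟩`, `Z = X ρ`, `|Q| = q^21`;
* `Q_eq` : `Q` is the unipotent radical of the parabolic subgroup `PP` of the nodes orthogonal to `ρ`;
* `index_PP` : `|T : PP| ≤ 2 q^21`; `cent_Z`, `cent_Q` : the class lengths.
-/

set_option autoImplicit false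
set_option linter.unusedSectionVars false
set_option maxHeartbeats 400000

namespace Cfsg.Agent.H441.IF.TE6

open CoxeterSystem Cfsg.Agent.ChevalleyStructure.CoxeterGeom Cfsg.Agent.Tits.Roots Cfsg.Agent.Tits.Core
  Cfsg.Agent.Tits.RootComb Cfsg.Agent.Nodes.Comb Cfsg.Agent.Nodes.Reps Cfsg.Agent.Nodes.BNOf
  Cfsg.Agent.Nodes.RGDTwGen Cfsg.Agent.Nodes.RGDChev Cfsg.Agent.Nodes.RGDFold
  Cfsg.Agent.Nodes.RGDFoldSL Cfsg.Agent.Nodes.RGDTwE6 Cfsg.Agent.Nodes.RGDTwTab Cfsg.Agent.Nodes.RGDTwCoordE6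
  Cfsg.Agent.Nodes.RGDTwCoord Cfsg.Agent.Nodes.RGDTwComE6 Cfsg.Agent.Nodes.RGDTwActE6
  Cfsg.Agent.Nodes.RGDLib Cfsg.Agent.Nodes.Bruhat Cfsg.Agent.Nodes.StabComb Cfsg.Agent.Nodes.LeviDec
open Cfsg.Lie Cfsg.Agent.ChevalleyStructure
open Cfsg.Agent.KFacts.TwESix.Comb (bf rts mem_rts bf_rep rho rho_root rho_long bf_rho pairing_eq)
open Cfsg.Agent.UGT.U2.FOne Cfsg.Agent.UGT.U2.FOne.TwESix

open Cfsg.Agent.H203.IF.TE6
open Cfsg.Agent.H752.RgdIdx
open scoped commutatorElement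

/-- the roots of level `1` -/
def SS : Finset (Fin 4 → ℤ) := (rts.filter fun x => x 0 = 1).toFinset

theorem mem_SS {x : Fin 4 → ℤ} : x ∈ SS ↔ x ∈ rts ∧ x 0 = 1 := by
  unfold SS
  rw [List.mem_toFinset, List.mem_filter, decide_eq_true_eq]

theorem tab_mem : ∀ x ∈ rts, x 0 = 1 → rho - x ∈ rts ∧ (rho - x) 0 = 1 ∧ bf x x = bf (rho - x) (rho - x) := by
  decide +kernel

set_option maxRecDepth 20000 in
theorem tab_add : ∀ x ∈ rts, ∀ y ∈ rts, x 0 = 1 → y 0 = 1 → x + y ∈ rts → y = rho - x := by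
  decide +kernel

theorem tab_top : ∀ x ∈ rts, 0 ≤ x 0 → rho + x ∉ rts ∧ x ≠ -rho := by
  decide +kernel

theorem tab_two : ∀ x ∈ rts, 2 ≤ x 0 → x = rho := by
  decide +kernel

/-- the exponent -/
def ee (x : Fin 4 → ℤ) : ℕ := if bf x x = 4 then 1 else 2

theorem sum_ee : ∑ x ∈ SS, ee x = 20 := by decide +kernel

theorem card_SS_ee : (rts.filter fun x => x 0 = 1).Nodup := by decide +kernel

variable {K : Type} [Field K] [Fintype K] {q : ℕ} {φ : K →+* K} (hφ : ∀ x, φ x = x ^ q)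
  (hqq : ∀ t : K, (t ^ q) ^ q = t) {W : Type*} [Group W] (cs : CoxeterSystem CoxeterMatrix.F₄ W)
  {z w : Fin 4 → ℤ}

include hφ in
/-- an element of trace one -/
theorem exists_trace (hq : 2 ≤ q) (hK : Fintype.card K = q ^ 2) [CharP K 2] : ∃ b : K, b + φ b = 1 := by
  obtain ⟨y, hy⟩ : ∃ y, φ y ≠ y := by
    by_contra hcon
    push Not at hcon
    have h1 := card_Fq hφ hq hK
    have h2 : Nat.card (Fq φ) = Nat.card K := Nat.card_congr
      { toFun := fun a => (a : K)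
        invFun := fun a => ⟨a, hcon a⟩
        left_inv := fun _ => rfl
        right_inv := fun _ => rfl }
    rw [h1, Nat.card_eq_fintype_card, hK] at h2
    have : q * 1 < q * q := Nat.mul_lt_mul_of_pos_left (by omega) (by omega)
    rw [mul_one, ← pow_two, ← h2] at this
    exact lt_irrefl _ this
  have h2 : ∀ a : K, a + a = 0 := fun a => CharTwo.add_self_eq_zero a
  have h3 : y + φ y ≠ 0 := by
    intro h
    apply hy
    have h4 := h2 (φ y)
    calc φ y = (y + φ y) + φ y + (y + y) := by rw [h2 y, h, zero_add, add_zero]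
      _ = y + (y + y) + (φ y + φ y) := by ring
      _ = y := by rw [h4, h2 y, add_zero, add_zero]
  have h4 : φ (φ y) = y := by rw [hφ, hφ, ← pow_mul, ← pow_two, ← hK, FiniteField.pow_card]
  refine ⟨y / (y + φ y), ?_⟩
  rw [map_div₀, map_add, h4, add_comm (φ y) y, ← add_div, div_self h3]

include hφ hqq in
/-- ... covers the root group of the sum -/
theorem com_surj2 (hq : 2 ≤ q) (hK : Fintype.card K = q ^ 2) [CharP K 2] (hz : IsRoot cs isCartan z)
    (hw : IsRoot cs isCartan w) (hzw : IsRoot cs isCartan (z + w)) (hl : bf (z + w) (z + w) = 4)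
    (he : bf z z = bf w w) : ∀ u ∈ X φ q z, u ≠ 1 → ∀ r ∈ X φ q (z + w), ∃ v ∈ X φ q w, ⁅u, v⁆ = r := by
  intro u hu hu1 r hr
  obtain ⟨a, ha, rfl⟩ := (mem_X hφ hqq hz _).1 hu
  obtain ⟨c, hc, rfl⟩ := (mem_X hφ hqq hzw _).1 hr
  have ha0 : a ≠ 0 := by
    rintro rfl
    exact hu1 (x_zero hφ hqq hz)
  have hcφ := (ok_iff_long hzw (lg_iff.2 hl)).1 hc
  have hN : ((N z w : ℤ) : K) * ((N z w : ℤ) : K) = 1 := by
    rcases tabN_spec z ((mem_rts cs).1 hz) w ((mem_rts cs).1 hw) ((mem_rts cs).1 hzw) hl he with h | h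
    · rw [h]; push_cast; ring
    · rw [h]; push_cast; ring
  rcases Cfsg.Agent.KFacts.TwESix.Comb.norm cs hz with h4 | h2
  · have ha' := (ok_iff_long hz (lg_iff.2 h4)).1 ha
    have hbφ : φ (((N z w : ℤ) : K) * (a⁻¹ * c)) = ((N z w : ℤ) : K) * (a⁻¹ * c) := by
      rw [map_mul, map_mul, map_intCast, map_inv₀, ha', hcφ]
    refine ⟨x φ q w (((N z w : ℤ) : K) * (a⁻¹ * c)), x_mem hφ hqq hw (ok_long hw (lg_iff.2 (he ▸ h4)) hbφ), ?_⟩
    obtain ⟨-, h5⟩ := comm_long hφ hqq hz hw hzw (lg_iff.2 h4) (lg_iff.2 (he ▸ h4)) ha' hbφ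
    rw [h5]
    congr 1
    calc ((N z w : ℤ) : K) * (a * (((N z w : ℤ) : K) * (a⁻¹ * c)))
        = (((N z w : ℤ) : K) * ((N z w : ℤ) : K)) * (a * a⁻¹) * c := by ring
      _ = c := by rw [hN, mul_inv_cancel₀ ha0, one_mul, one_mul]
  · obtain ⟨b0, hb0⟩ := exists_trace hφ hq hK
    have hφa : φ a ≠ 0 := fun h => ha0 (by rw [← phi_phi hφ hqq a, h, map_zero])
    refine ⟨x φ q w (((N z w : ℤ) : K) * (b0 * ((φ a)⁻¹ * c))), x_mem hφ hqq hw
      (ok_short hφ hqq hw (st_iff.2 (he ▸ h2)) _), ?_⟩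
    rw [comm_trace hφ hqq hz hw hzw (st_iff.2 h2) (st_iff.2 (he ▸ h2)) (lg_iff.2 hl)]
    congr 1
    have e1 : φ (((N z w : ℤ) : K) * (b0 * ((φ a)⁻¹ * c))) = ((N z w : ℤ) : K) * (φ b0 * (a⁻¹ * c)) := by
      rw [map_mul, map_mul, map_mul, map_intCast, map_inv₀, phi_phi hφ hqq, hcφ]
    rw [e1]
    calc ((N z w : ℤ) : K) * (a * (((N z w : ℤ) : K) * (φ b0 * (a⁻¹ * c))) +
          φ a * (((N z w : ℤ) : K) * (b0 * ((φ a)⁻¹ * c))))
        = (((N z w : ℤ) : K) * ((N z w : ℤ) : K)) * (φ b0 * c * (a * a⁻¹) + b0 * c * (φ a * (φ a)⁻¹)) := by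
          ring
      _ = (b0 + φ b0) * c := by rw [hN, mul_inv_cancel₀ ha0, mul_inv_cancel₀ hφa]; ring
      _ = c := by rw [hb0, one_mul]

include hφ hqq cs in
theorem X_comm (hz : IsRoot cs isCartan z) : ∀ u ∈ X φ q z, ∀ v ∈ X φ q z, u * v = v * u := by
  intro u hu v hv
  obtain ⟨a, ha, rfl⟩ := (mem_X hφ hqq hz _).1 hu
  obtain ⟨b, hb, rfl⟩ := (mem_X hφ hqq hz _).1 hv
  rw [← x_add hφ hqq hz ha hb, ← x_add hφ hqq hz hb ha, add_comm]

include hφ hqq cs in
/-- The Heisenberg datum. -/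
theorem heis (hq : 2 ≤ q) (hK : Fintype.card K = q ^ 2) [CharP K 2] :
    Cfsg.Agent.H203.IF.Heis (X φ q rho) (X φ q) SS (fun x => rho - x) where
  mem i hi := by
    have h1 := mem_SS.1 hi
    have h2 := tab_mem i h1.1 h1.2
    exact mem_SS.2 ⟨h2.1, h2.2.1⟩
  oo i _ := sub_sub_cancel _ _
  zz := X_comm hφ hqq cs (rho_root cs)
  zx z hz i hi a ha := by
    have h1 := mem_SS.1 hi
    have h2 := tab_top i h1.1 (by omega)
    exact commute_X hφ hqq (rho_root cs) ((mem_rts cs).2 h1.1) h2.1 h2.2 z hz a ha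
  comm i hi j hj hji a ha b hb := by
    have h1 := mem_SS.1 hi
    have h2 := mem_SS.1 hj
    refine commute_X hφ hqq ((mem_rts cs).2 h1.1) ((mem_rts cs).2 h2.1)
      (fun h => hji (tab_add i h1.1 j h2.1 h1.2 h2.2 h)) (fun h => ?_) a ha b hb
    have h3 := congrFun h 0
    rw [Pi.neg_apply] at h3
    omega
  pair i hi a ha b hb := by
    have h1 := mem_SS.1 hi
    have h2 := tab_mem i h1.1 h1.2
    have h3 : i + (rho - i) = rho := add_sub_cancel _ _
    have h4 := com_mem (cs := cs) hφ hqq ((mem_rts cs).2 h1.1) ((mem_rts cs).2 h2.1)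
      (by rw [h3]; exact rho_root cs) (by rw [h3]; exact rho_long) h2.2.2 a ha b hb
    rwa [h3] at h4
  surj i hi a ha ha1 z hz := by
    have h1 := mem_SS.1 hi
    have h2 := tab_mem i h1.1 h1.2
    have h3 : i + (rho - i) = rho := add_sub_cancel _ _
    exact com_surj2 hφ hqq cs hq hK ((mem_rts cs).2 h1.1) ((mem_rts cs).2 h2.1)
      (by rw [h3]; exact rho_root cs) (by rw [h3]; exact rho_long) h2.2.2 a ha ha1 z (by rw [h3]; exact hz)

/-- `Q` -/
noncomputable def QQ (φ : K →+* K) (q : ℕ) : Subgroup ↥(twistedE6 K q) := Cfsg.Agent.H203.IF.QQ (X φ q rho) (X φ q) SS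

include hφ hqq cs in
theorem sp (hq : 2 ≤ q) (hK : Fintype.card K = q ^ 2) [CharP K 2] : H255.IFK.Sp (X φ q rho) (X φ q rho) (QQ φ q) := by
  have H := heis hφ hqq cs hq hK
  exact
    { le := le_rfl
      le' := Cfsg.Agent.H203.IF.Heis.Z_le
      central := fun w hw x hx => (H.zQ hw hx).symm
      comm_mem := fun x hx y hy => by
        have := H.com hx hy
        rwa [commutatorElement_def] at this
      special := fun x hx hxZ z hz => by
        obtain ⟨y, hy, h⟩ := H.surjQ hx hxZ hz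
        exact ⟨y, hy, by rw [← h, commutatorElement_def]⟩ }

include hφ hqq cs in
theorem card_root (hq : 2 ≤ q) (hK : Fintype.card K = q ^ 2) (hz : IsRoot cs isCartan z) :
    Nat.card (X φ q z) = q ^ ee z := by
  unfold ee
  rcases Cfsg.Agent.KFacts.TwESix.Comb.norm cs hz with h4 | h2
  · rw [if_pos h4, card_long hφ hqq hq hK hz h4, pow_one]
  · rw [if_neg (by omega), card_short hφ hqq hK hz h2]

include hφ hqq cs in
theorem card_Z (hq : 2 ≤ q) (hK : Fintype.card K = q ^ 2) : Nat.card (X φ q rho) = q :=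
  card_long hφ hqq hq hK (rho_root cs) rho_long

include hφ hqq cs in
theorem card_Q (hq : 2 ≤ q) (hK : Fintype.card K = q ^ 2) [CharP K 2] :
    Nat.card (QQ φ q) = q * (q ^ 10) ^ 2 := by
  classical
  have H := heis hφ hqq cs hq hK
  have hprod : ∏ i ∈ SS, Nat.card (X φ q i) = q ^ 20 := by
    rw [Finset.prod_congr rfl fun i hi => card_root hφ hqq cs hq hK ((mem_rts cs).2 (mem_SS.1 hi).1),
      Finset.prod_pow_eq_pow_sum, sum_ee]
  have hZ := card_Z hφ hqq cs hq hK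
  have hfin : Finite ↥(twistedE6 K q) := inferInstance
  apply le_antisymm
  · let ex : ((i : SS) → X φ q i) → (Fin 4 → ℤ) → ↥(twistedE6 K q) := fun a i =>
      if h : i ∈ SS then (a ⟨i, h⟩ : ↥(twistedE6 K q)) else 1
    have hex : ∀ a, ∀ i ∈ SS, ex a i ∈ X φ q i := by
      intro a i hi
      simp only [ex, dif_pos hi]
      exact (a ⟨i, hi⟩).2
    let f : X φ q rho × ((i : SS) → X φ q i) → QQ φ q := fun p =>
      ⟨p.1 * Cfsg.Agent.H203.IF.Heis.pr (ex p.2) SS.toList, mul_mem (Cfsg.Agent.H203.IF.Heis.Z_le p.1.2)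
        (Cfsg.Agent.H203.IF.Heis.pr_mem (fun i hi => Finset.mem_toList.1 hi) (hex p.2))⟩
    have hf : Function.Surjective f := by
      rintro ⟨g, hg⟩
      obtain ⟨a, ha, z, hz, e⟩ := H.nf hg
      refine ⟨(⟨z, hz⟩, fun i => ⟨a i, ha i i.2⟩), Subtype.ext ?_⟩
      show z * Cfsg.Agent.H203.IF.Heis.pr (ex _) SS.toList = g
      rw [e]
      congr 1
      unfold Cfsg.Agent.H203.IF.Heis.pr
      congr 1
      apply List.map_congr_left
      intro i hi
      have hi' := Finset.mem_toList.1 hi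
      simp only [ex, dif_pos hi']
    have h1 := Nat.card_le_card_of_surjective f hf
    rw [Nat.card_prod, Nat.card_pi, hZ, Finset.prod_coe_sort SS (fun i => Nat.card (X φ q i)), hprod] at h1
    rw [← pow_mul]
    exact h1
  · have h1 := H.card_ge (by
      intro h
      rw [h, Subgroup.card_bot] at hZ
      omega)
    rw [hprod, hZ] at h1
    rw [← pow_mul]
    exact h1

end Cfsg.Agent.H441.IF.TE6
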