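import Cfsg.Agent.H441.IF.TE6A

/-!
# S5719, `²E₆(q)`, `q` even: the parabolic subgroup and opposite root elements (helper441)

* `QQ_eq`, `norm_Q`, `norm_Z`, `cent_Z`, `cent_Q`;
* `conj_long` : long root elements are conjugate; `opp` : opposite elements.
-/

set_option autoImplicit false
set_option linter.unusedSectionVars false
set_option maxHeartbeats 400000

namespace Cfsg.Agent.H441.IF.TE6

open CoxeterSystem Cfsg.Agent.ChevalleyStructure.CoxeterGeom Cfsg.Agent.Tits.Roots Cfsg.Agent.Tits.Core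
  Cfsg.Agent.Tits.RootComb Cfsg.Agent.Nodes.Comb Cfsg.Agent.Nodes.Reps Cfsg.Agent.Nodes.BNOf
  Cfsg.Agent.Nodes.RGDTwGen Cfsg.Agent.Nodes.RGDChev Cfsg.Agent.Nodes.RGDFold
  Cfsg.Agent.Nodes.RGDFoldSL Cfsg.Agent.Nodes.RGDTwE6 Cfsg.Agent.Nodes.RGDTwTab Cfsg.Agent.Nodes.RGDTwCoordE6
  Cfsg.Agent.Nodes.RGDTwCoord Cfsg.Agent.Nodes.RGDTwComE6 Cfsg.Agent.Nodes.RGDTwActE6
  Cfsg.Agent.Nodes.RGDLib Cfsg.Agent.Nodes.Bruhat Cfsg.Agent.Nodes.StabComb Cfsg.Agent.Nodes.LeviDec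
open Cfsg.Lie Cfsg.Agent.ChevalleyStructure
open Cfsg.Agent.KFacts.TwESix.Comb (bf rts mem_rts bf_rep bf_rep_left rho rho_root rho_long bf_rho pairing_eq
  bf_neg_left bf_neg_right two_bf_sr exists_rep_long sr_norm)
open Cfsg.Agent.UGT.U2.FOne Cfsg.Agent.UGT.U2.FOne.TwESix
open Cfsg.Agent.H203.IF.TE6
open Cfsg.Agent.H752.RgdIdx
open scoped commutatorElement

variable {K : Type} [Field K] [Fintype K] {q : ℕ} {φ : K →+* K} (hφ : ∀ x, φ x = x ^ q)
  (hqq : ∀ t : K, (t ^ q) ^ q = t) {W : Type*} [Group W] (cs : CoxeterSystem CoxeterMatrix.F₄ W)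
  {z w : Fin 4 → ℤ}

/-- the parabolic subgroup of the nodes orthogonal to `ρ` -/
noncomputable def PP (φ : K →+* K) (q : ℕ) : Subgroup ↥(twistedE6 K q) :=
  PJ cs isCartan (T K q) (X φ q) (orth cs isCartan rho)

theorem orth_tab : ∀ k : Fin 4, ¬ pairing A k rho = 0 ↔ k = 0 := by decide +kernel

theorem not_orth {k : Fin 4} : k ∉ orth cs isCartan rho ↔ k = 0 := by
  rw [mem_orth]; exact orth_tab k

theorem mem_NotJ_iff {x : Fin 4 → ℤ} : x ∈ NotJ cs isCartan (orth cs isCartan rho) ↔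
    IsRoot cs isCartan x ∧ 0 < x 0 := by
  constructor
  · rintro ⟨h1, -, k, hk, h0⟩
    rw [not_orth] at hk
    subst hk
    exact ⟨h1, h0⟩
  · rintro ⟨h1, h0⟩
    exact ⟨h1, nonneg_of_pos_apply h1 h0, 0, (not_orth cs).2 rfl, h0⟩

theorem rho_zero : rho 0 = 2 := rfl

theorem X_le_QQ (hz : IsRoot cs isCartan z) (h0 : 0 < z 0) : X φ q z ≤ QQ φ q := by
  have hz' := (mem_rts cs).1 hz
  rcases lt_or_ge (z 0) 2 with h1 | h1
  · exact Cfsg.Agent.H203.IF.Heis.X_le (mem_SS.2 ⟨hz', by omega⟩)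
  · rw [tab_two z hz' h1]
    exact Cfsg.Agent.H203.IF.Heis.Z_le

theorem QQ_eq : QQ φ q = VJ cs isCartan (X φ q) (orth cs isCartan rho) := by
  apply le_antisymm
  · refine Cfsg.Agent.H203.IF.Heis.QQ_le ?_ fun i hi => ?_
    · exact RGD.le_Sup ((mem_NotJ_iff cs).2 ⟨rho_root cs, by rw [rho_zero]; norm_num⟩)
    · have h1 := mem_SS.1 hi
      exact RGD.le_Sup ((mem_NotJ_iff cs).2 ⟨(mem_rts cs).2 h1.1, by omega⟩)
  · refine RGD.Sup_le fun z hz => ?_
    have h1 := (mem_NotJ_iff cs).1 hz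
    exact X_le_QQ cs h1.1 h1.2

theorem tab_comm : ∀ x ∈ rts, 0 ≤ x 0 → x + rho ∉ rts ∧ rho ≠ -x := by decide +kernel

include hφ hqq cs in
theorem comm_rho (hz : IsRoot cs isCartan z) (h0 : 0 ≤ z 0) :
    ∀ u ∈ X φ q z, ∀ v ∈ X φ q rho, u * v = v * u := by
  have h1 := tab_comm z ((mem_rts cs).1 hz) h0
  exact commute_X hφ hqq hz (rho_root cs) h1.1 h1.2

theorem le_normalizer_of_comm {G : Type*} [Group G] {H L : Subgroup G} (h : ∀ u ∈ H, ∀ v ∈ L, u * v = v * u) :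
    H ≤ Subgroup.normalizer (L : Set G) := by
  intro u hu
  rw [Subgroup.mem_normalizer_iff]
  intro v
  constructor
  · intro hv
    rw [h u hu v hv, mul_inv_cancel_right]
    exact hv
  · intro hv
    have h1 := h u hu _ hv
    have h2 : v = u * v * u⁻¹ := by
      have h3 : u * (u * v * u⁻¹) * u⁻¹ = u * v * u⁻¹ := by rw [h1]; group
      have h4 := mul_right_cancel h3
      exact (mul_left_cancel h4).symm
    rw [h2]
    exact hv

variable [CharP K 2]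

include hφ hqq in
theorem norm_Q : ∀ g ∈ PP cs φ q, ∀ x ∈ QQ φ q, g * x * g⁻¹ ∈ QQ φ q := by
  intro g hg x hx
  rw [QQ_eq cs] at hx ⊢
  have h1 := PJ_le_normalizer_VJ (rgd cs hφ hqq 2) _ hg
  exact (Subgroup.mem_normalizer_iff.1 h1 x).1 hx

include hφ hqq in
theorem norm_Z : ∀ g ∈ PP cs φ q, ∀ x ∈ X φ q rho, g * x * g⁻¹ ∈ X φ q rho := by
  have R := rgd cs hφ hqq 2
  have h1 : PP cs φ q ≤ Subgroup.normalizer (X φ q rho : Set ↥(twistedE6 K q)) := by
    refine sup_le (sup_le (fun t ht => ?_) (RGD.Sup_le fun r hr => ?_)) (RGD.Sup_le fun r hr => ?_)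
    · rw [mem_normalizer_iff_cj]
      exact R.tor rho (rho_root cs) t ht
    · have h0 : r 0 = 0 := hr.2 0 ((not_orth cs).2 rfl)
      exact le_normalizer_of_comm (comm_rho hφ hqq cs hr.1 (by omega))
    · have h0 := (mem_NotJ_iff cs).1 hr
      exact le_normalizer_of_comm (comm_rho hφ hqq cs h0.1 (by omega))
  intro g hg x hx
  exact (Subgroup.mem_normalizer_iff.1 (h1 hg) x).1 hx

section Idx

variable (hq : 2 ≤ q) (hK : Fintype.card K = q ^ 2) (hidx : (PP cs φ q).index ≤ 2 * q ^ 21)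

include hφ hqq hq hK hidx

theorem cent_Z {t : ↥(twistedE6 K q)} (ht : t ∈ X φ q rho) :
    (Subgroup.centralizer ({t} : Set ↥(twistedE6 K q))).index ≤ 2 * q ^ 21 * q := by
  have hfin : Finite ↥(twistedE6 K q) := inferInstance
  refine (H255.IFK.index_centralizer_le (norm_Z hφ hqq cs) ht).trans ?_
  rw [card_Z hφ hqq cs hq hK]
  exact Nat.mul_le_mul_right _ hidx

theorem cent_Q {t : ↥(twistedE6 K q)} (ht : t ∈ QQ φ q) :
    (Subgroup.centralizer ({t} : Set ↥(twistedE6 K q))).index ≤ 2 * q ^ 21 * (q * (q ^ 10) ^ 2) := by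
  have hfin : Finite ↥(twistedE6 K q) := inferInstance
  refine (H255.IFK.index_centralizer_le (norm_Q hφ hqq cs) ht).trans ?_
  rw [card_Q hφ hqq cs hq hK]
  exact Nat.mul_le_mul_right _ hidx

end Idx

include hφ hqq cs in
/-- root elements are involutions -/
theorem sq_one (hz : IsRoot cs isCartan z) : ∀ u ∈ X φ q z, u * u = 1 := by
  intro u hu
  obtain ⟨a, ha, rfl⟩ := (mem_X hφ hqq hz _).1 hu
  rw [← x_add hφ hqq hz ha ha, CharTwo.add_self_eq_zero]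
  exact x_zero hφ hqq hz

include hφ hqq cs in
theorem order_two (hz : IsRoot cs isCartan z) {u : ↥(twistedE6 K q)} (hu : u ∈ X φ q z) (h1 : u ≠ 1) :
    orderOf u = 2 := orderOf_eq_prime (by rw [pow_two]; exact sq_one hφ hqq cs hz u hu) h1

include hφ hqq cs in
/-- long root elements are conjugate -/
theorem conj_long (hz : IsRoot cs isCartan z) (hw : IsRoot cs isCartan w) (lz : bf z z = 4) (lw : bf w w = 4)
    {u v : ↥(twistedE6 K q)} (hu : u ∈ X φ q z) (hv : v ∈ X φ q w) (hu1 : u ≠ 1) (hv1 : v ≠ 1) : IsConj u v := by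
  have R := rgd cs hφ hqq 2
  obtain ⟨w1, h1⟩ := exists_rep_long cs hz lz
  obtain ⟨w2, h2⟩ := exists_rep_long cs hw lw
  have h3 : rep cs isCartan (w2 * w1⁻¹) z = w := by
    rw [rep_mul_apply, ← h1, rep_inv_apply, h2]
  obtain ⟨k, hk⟩ := exists_rp cs R.nsys (w2 * w1⁻¹)
  have h4 := R.conj_mem hk hz hu
  rw [h3] at h4
  have h5 : k * u * k⁻¹ ≠ 1 := fun h => hu1 (by
    have : u = k⁻¹ * (k * u * k⁻¹) * k := by group
    rw [this, h]; group)
  obtain ⟨a, ha, ea⟩ := (mem_X hφ hqq hw _).1 h4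
  obtain ⟨b, hb, eb⟩ := (mem_X hφ hqq hw _).1 hv
  have ha0 : a ≠ 0 := by
    rintro rfl
    exact h5 (by rw [← ea, x_zero hφ hqq hw])
  have hb0 : b ≠ 0 := by
    rintro rfl
    exact hv1 (by rw [← eb, x_zero hφ hqq hw])
  obtain ⟨t, -, ht⟩ := exists_T hφ hqq hw ha hb ha0 hb0
  have h6 := ht a ha
  rw [div_mul_cancel₀ _ ha0, ea, eb] at h6
  exact (isConj_iff.2 ⟨k, rfl⟩ : IsConj u (k * u * k⁻¹)).trans (isConj_iff.2 ⟨t, h6⟩)

include hφ hqq cs in
/-- Opposite elements. -/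
theorem opp (hq : 2 ≤ q) (hK : Fintype.card K = q ^ 2) :
    ∃ x ∈ X φ q (-rho), x ≠ 1 ∧ ∀ c ∈ QQ φ q, c * x = x * c → c = 1 := by
  have hW : Finite W := Cfsg.Agent.KFacts.TwESix.Comb.finiteW cs
  have R := rgd cs hφ hqq 2
  have H := heis hφ hqq cs hq hK
  have h0 : IsRoot cs isCartan (-sr 0) := (isRoot_sr cs isCartan 0).neg
  obtain ⟨u, hu, hu1⟩ : ∃ u ∈ X φ q (-sr 0), u ≠ 1 :=
    ⟨x φ q (-sr 0) 1, x_mem hφ hqq h0 (ok_one _), fun h => one_ne_zero ((x_eq_one_iff hφ hqq h0 (ok_one _)).1 h)⟩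
  obtain ⟨a, ha, t, ht, b, hb, e⟩ := R.rk1 0 u hu hu1
  obtain ⟨w, hw⟩ := exists_rep_long cs (rho_root cs) rho_long
  obtain ⟨k, hk⟩ := exists_rp cs R.nsys w
  have hx := R.conj_mem hk h0 hu
  have ha' := R.conj_mem hk (isRoot_sr cs isCartan 0) ha
  have hb' := R.conj_mem hk (isRoot_sr cs isCartan 0) hb
  rw [hw] at ha' hb'
  rw [map_neg, hw] at hx
  refine ⟨k * u * k⁻¹, hx, fun h => hu1 (by
    have : u = k⁻¹ * (k * u * k⁻¹) * k := by group
    rw [this, h]; group), fun c hc hcx => ?_⟩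
  set m := k * (t * nn hφ 0) * k⁻¹ with hm
  have hmR : Rp cs R.nsys (w * cs.simple 0 * w⁻¹) m := by
    have h1 := (rp_of_mem (cs := cs) (hN := R.nsys) ht).mul (rp_simple cs R.nsys 0)
    rw [one_mul] at h1
    exact (hk.mul h1).mul hk.inv
  have hme : m = (k * a * k⁻¹)⁻¹ * (k * u * k⁻¹) * (k * b * k⁻¹)⁻¹ := by
    rw [hm, e]; group
  have hca := H.zQ ha' hc
  have hcb := H.zQ hb' hc
  have hmc : m * c * m⁻¹ = c := by
    have h1 : m * c = c * m := by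
      have e1 : (k * b * k⁻¹)⁻¹ * c = c * (k * b * k⁻¹)⁻¹ := by
        rw [inv_mul_eq_iff_eq_mul, ← mul_assoc, hcb, mul_assoc, mul_inv_cancel, mul_one]
      have e2 : (k * a * k⁻¹)⁻¹ * c = c * (k * a * k⁻¹)⁻¹ := by
        rw [inv_mul_eq_iff_eq_mul, ← mul_assoc, hca, mul_assoc, mul_inv_cancel, mul_one]
      rw [hme, mul_assoc, e1, ← mul_assoc, mul_assoc (k * a * k⁻¹)⁻¹, ← hcx, ← mul_assoc, e2]
      simp only [mul_assoc]
    rw [h1, mul_inv_cancel_right]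
  -- `m Q m⁻¹ ≤ VNJ`
  have h2 : m * c * m⁻¹ ∈ VNJ cs isCartan (X φ q) (orth cs isCartan rho) := by
    have hc' := hc
    rw [QQ_eq cs] at hc'
    have h3 : cj m (VJ cs isCartan (X φ q) (orth cs isCartan rho)) ≤
        VNJ cs isCartan (X φ q) (orth cs isCartan rho) := by
      unfold VJ
      rw [RGD.cj_Sup]
      refine iSup_le ?_
      rintro ⟨y, hy⟩
      have hy' := (mem_NotJ_iff cs).1 hy
      rw [R.conj_rp hmR hy'.1]
      refine RGD.le_Sup ?_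
      show -(rep cs isCartan (w * cs.simple 0 * w⁻¹) y) ∈ NotJ cs isCartan (orth cs isCartan rho)
      have e1 : pairing A 0 (rep cs isCartan w⁻¹ y) = y 0 := by
        have e2 := two_bf_sr (rep cs isCartan w⁻¹ y) 0
        rw [sr_norm.1, bf_rep_left cs w⁻¹, inv_inv, hw, bf_rho] at e2
        omega
      have e3 : rep cs isCartan (w * cs.simple 0 * w⁻¹) y = y - (y 0) • rho := by
        rw [rep_mul_apply, rep_mul_apply, rep_simple_eq, e1, map_sub, map_smul, hw, rep_apply_inv]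
      rw [mem_NotJ_iff]
      refine ⟨(hy'.1.act _).neg, ?_⟩
      rw [e3, Pi.neg_apply, Pi.sub_apply, Pi.smul_apply, rho_zero, smul_eq_mul]
      have := hy'.2
      omega
    exact h3 (conj_mem_cj.2 hc')
  rw [hmc] at h2
  have h3 : c ∈ PJ cs isCartan (T K q) (X φ q) (orth cs isCartan rho) := by
    rw [QQ_eq cs] at hc
    exact VJ_le_PJ hc
  have h4 : c ∈ VNJ cs isCartan (X φ q) (orth cs isCartan rho) ⊓ PJ cs isCartan (T K q) (X φ q)
      (orth cs isCartan rho) := ⟨h2, h3⟩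
  rw [VNJ_inf_PJ R] at h4
  exact h4

end Cfsg.Agent.H441.IF.TE6
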