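import Cfsg.Agent.H441.IF.TE6B

/-!
# S5719, `²E₆(q)`, `q` even: all long root groups in `A` (helper441)

* `scale`, `down` : commutators of long and short root elements;
* `all_long` : `Fix A` and all long root groups in `A`: `A = ⊤`.
-/

set_option autoImplicit false
set_option linter.unusedSectionVars false
set_option maxHeartbeats 400000

namespace Cfsg.Agent.H441.IF.TE6

open CoxeterSystem Cfsg.Agent.ChevalleyStructure.CoxeterGeom Cfsg.Agent.Tits.Roots Cfsg.Agent.Tits.Core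
  Cfsg.Agent.Tits.RootComb Cfsg.Agent.Nodes.Comb Cfsg.Agent.Nodes.Reps Cfsg.Agent.Nodes.BNOf
  Cfsg.Agent.Nodes.RGDTwGen Cfsg.Agent.Nodes.RGDChev Cfsg.Agent.Nodes.RGDFold
  Cfsg.Agent.Nodes.RGDFoldSL Cfsg.Agent.Nodes.RGDTwE6 Cfsg.Agent.Nodes.RGDTwTab Cfsg.Agent.Nodes.RGDTwCoordE6
  Cfsg.Agent.Nodes.RGDTwCoord Cfsg.Agent.Nodes.RGDTwComE6 Cfsg.Agent.Nodes.RGDTwActE6
  Cfsg.Agent.Nodes.RGDLib Cfsg.Agent.Nodes.Bruhat Cfsg.Agent.Nodes.StabComb Cfsg.Agent.Nodes.LeviDec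
open Cfsg.Lie Cfsg.Agent.ChevalleyStructure
open Cfsg.Agent.KFacts.TwESix.Comb (bf rts mem_rts bf_rep bf_rep_left rho rho_root rho_long bf_rho pairing_eq
  bf_neg_left bf_neg_right two_bf_sr exists_rep_long sr_norm)
open Cfsg.Agent.UGT.U2.FOne Cfsg.Agent.UGT.U2.FOne.TwESix
open Cfsg.Agent.H203.IF.TE6
open Cfsg.Agent.H752.RgdIdx
open scoped commutatorElement

/-- the structure constants of long and short roots are signs -/
def tabQ : Prop := ∀ z ∈ rts, ∀ w ∈ rts, z + w ∈ rts → bf z z = 4 → bf w w = 2 → N z w = 1 ∨ N z w = -1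

theorem NN_sign (r s : ℕ) : Cfsg.Agent.Nodes.RGDTwCoord.NN dgE6 Cfsg.Agent.Nodes.RGDTwCoordE6.dl r s = 1 ∨
    Cfsg.Agent.Nodes.RGDTwCoord.NN dgE6 Cfsg.Agent.Nodes.RGDTwCoordE6.dl r s = -1 := by
  have h1 : ∀ n : ℕ, Cfsg.Agent.Nodes.RGDTwCoordE6.dl n = 1 ∨ Cfsg.Agent.Nodes.RGDTwCoordE6.dl n = -1 := by
    intro n
    unfold Cfsg.Agent.Nodes.RGDTwCoordE6.dl
    split_ifs
    · exact Or.inr rfl
    · exact Or.inl rfl
  have h2 : ∀ n : ℕ, dc n = 1 ∨ dc n = -1 := by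
    intro n
    unfold dc
    split_ifs
    · exact Or.inl rfl
    · exact Or.inr rfl
  unfold Cfsg.Agent.Nodes.RGDTwCoord.NN
  rcases h1 (dk (dgE6 r s)) with a | a <;> rcases h2 (dgE6 r s) with b | b <;> rcases h1 r with c | c <;>
    rcases h1 s with d | d <;> rw [a, b, c, d] <;> decide

theorem tabQ_spec : tabQ := by
  intro z _ w _ _ _ _
  unfold N
  split_ifs
  · exact NN_sign _ _
  · exact NN_sign _ _
  · exact NN_sign _ _

/-- a long root with sum a root -/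
theorem tab_ex : ∀ w ∈ rts, bf w w = 2 → ∃ z ∈ rts, bf z z = 4 ∧ z + w ∈ rts ∧ bf (z + w) (z + w) = 2 := by
  decide +kernel

theorem tab_lev : ∀ w ∈ rts, bf w w = 2 → w 0 < 0 → w + rho ∈ rts ∧ bf (w + rho) (w + rho) = 2 ∧ 0 ≤ (w + rho) 0 := by
  decide +kernel

variable {K : Type} [Field K] [Fintype K] {q : ℕ} {φ : K →+* K} (hφ : ∀ x, φ x = x ^ q)
  (hqq : ∀ t : K, (t ^ q) ^ q = t) {W : Type*} [Group W] (cs : CoxeterSystem CoxeterMatrix.F₄ W)
  {z w : Fin 4 → ℤ} {A : Subgroup ↥(twistedE6 K q)}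

include hφ hqq cs in
theorem down (hl : ∀ z, IsRoot cs isCartan z → bf z z = 4 → X φ q z ≤ A) (hz : IsRoot cs isCartan z)
    (hw : IsRoot cs isCartan w) (hzw : IsRoot cs isCartan (z + w)) (lz : bf z z = 4) (sw : bf w w = 2) {b : K}
    (hb : x φ q w b ∈ A) {a : K} (ha : φ a = a) : x φ q (z + w) (a * b) ∈ A := by
  obtain ⟨h1, h2, h3, h4⟩ := comm_quad hφ hqq hz hw hzw (lg_iff.2 lz) (st_iff.2 sw)
    (a := ((N z w : ℤ) : K) * a) (by rw [map_mul, map_intCast, ha]) b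
  have hN : ((N z w : ℤ) : K) * ((N z w : ℤ) : K) = 1 := by
    rcases tabQ_spec z ((mem_rts cs).1 hz) w ((mem_rts cs).1 hw) ((mem_rts cs).1 hzw) lz sw with h | h
    · rw [h]; push_cast; ring
    · rw [h]; push_cast; ring
  have e1 : ((N z w : ℤ) : K) * (((N z w : ℤ) : K) * a * b) = a * b := by
    calc _ = (((N z w : ℤ) : K) * ((N z w : ℤ) : K)) * (a * b) := by ring
      _ = _ := by rw [hN, one_mul]
  rw [e1] at h4
  have h5 : x φ q z (((N z w : ℤ) : K) * a) ∈ A :=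
    hl z hz lz (x_mem hφ hqq hz (ok_long hz (lg_iff.2 lz) (by rw [map_mul, map_intCast, ha])))
  have h6 : ⁅x φ q z (((N z w : ℤ) : K) * a), x φ q w b⁆ ∈ A := by
    rw [commutatorElement_def]
    exact mul_mem (mul_mem (mul_mem h5 hb) (inv_mem h5)) (inv_mem hb)
  have h7 : x φ q (z + (2 : ℤ) • w) (((N2 z w : ℤ) : K) * (((N z w : ℤ) : K) * a * (b * φ b))) ∈ A := by
    refine hl _ h2 (lg_iff.1 h3) (x_mem hφ hqq h2 (ok_long h2 h3 ?_))
    rw [map_mul, map_mul, map_mul, map_mul, map_intCast, map_intCast, phi_phi hφ hqq, ha, mul_comm (φ b) b]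
  rw [h4] at h6
  exact (Subgroup.mul_mem_cancel_right A h7).1 h6

include hφ hqq cs in
theorem scale (hl : ∀ z, IsRoot cs isCartan z → bf z z = 4 → X φ q z ≤ A) (hw : IsRoot cs isCartan w)
    (sw : bf w w = 2) {b : K} (hb : x φ q w b ∈ A) {a : K} (ha : φ a = a) : x φ q w (a * b) ∈ A := by
  obtain ⟨z, hz', lz, hzw', szw⟩ := tab_ex w ((mem_rts cs).1 hw) sw
  have hz := (mem_rts cs).2 hz'
  have hzw := (mem_rts cs).2 hzw'
  have h1 := down hφ hqq cs hl hz hw hzw lz sw hb (a := 1) (map_one φ)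
  rw [one_mul] at h1
  have e : -z + (z + w) = w := neg_add_cancel_left z w
  have h2 := down hφ hqq cs hl hz.neg hzw (by rw [e]; exact hw) (by rw [bf_neg_left, bf_neg_right, neg_neg, lz]) szw h1 ha
  rwa [e] at h2

include hφ hqq cs in
/-- a short root group with small index -/
theorem short_le (hq : 2 ≤ q) (hK : Fintype.card K = q ^ 2)
    (hl : ∀ z, IsRoot cs isCartan z → bf z z = 4 → X φ q z ≤ A) (hw : IsRoot cs isCartan w)
    (sw : bf w w = 2) {f : ℕ} (hf : f < q) (hrel : A.relIndex (X φ q w) ≤ f) : X φ q w ≤ A := by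
  intro g hg
  obtain ⟨b, hb, rfl⟩ := (mem_X hφ hqq hw _).1 hg
  by_contra hcon
  have hfin : Finite ↥(twistedE6 K q) := inferInstance
  let ψ : Fq φ → (X φ q w) ⧸ A.subgroupOf (X φ q w) := fun a =>
    QuotientGroup.mk ⟨x φ q w ((a : K) * b), x_mem hφ hqq hw (ok_short hφ hqq hw (st_iff.2 sw) _)⟩
  have hinj : Function.Injective ψ := by
    intro a a' h
    by_contra hne
    have h1 := QuotientGroup.eq.1 h
    rw [Subgroup.mem_subgroupOf] at h1
    have h2 : (x φ q w ((a : K) * b))⁻¹ * x φ q w ((a' : K) * b) ∈ A := h1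
    have hok : ∀ c, Ok chevE6 J O φ w c := ok_short hφ hqq hw (st_iff.2 sw)
    have h3 : (x φ q w ((a : K) * b))⁻¹ * x φ q w ((a' : K) * b) = x φ q w (((a' : K) - a) * b) := by
      rw [inv_mul_eq_iff_eq_mul, ← x_add hφ hqq hw (hok _) (hok _)]
      congr 1
      ring
    rw [h3] at h2
    have hd : (a' : K) - a ≠ 0 := fun h0 => hne (Subtype.ext (sub_eq_zero.1 h0).symm)
    have hφa : φ (a : K) = a := a.2
    have hφa' : φ (a' : K) = a' := a'.2
    have h4 := scale hφ hqq cs hl hw sw h2 (a := ((a' : K) - a)⁻¹) (by rw [map_inv₀, map_sub, hφa, hφa'])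
    rw [← mul_assoc, inv_mul_cancel₀ hd, one_mul] at h4
    exact hcon h4
  have h1 := Nat.card_le_card_of_injective ψ hinj
  rw [card_Fq hφ hq hK] at h1
  have h2 : Nat.card ((X φ q w) ⧸ A.subgroupOf (X φ q w)) = A.relIndex (X φ q w) := rfl
  omega

variable [CharP K 2]

include hφ hqq cs in
/-- the centralizer bound for a long root element of `A` -/
theorem f_lt (hq : 2 ≤ q) (hK : Fintype.card K = q ^ 2) (hidx : (PP cs φ q).index ≤ 2 * q ^ 21)
    (hA : H255.IFK.Fix A) (hl : X φ q rho ≤ A) (hl' : X φ q (-rho) ≤ A) :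
    ∃ f < q, ∀ B : Subgroup ↥(twistedE6 K q), (∀ b ∈ B, ∀ v ∈ X φ q rho, b * v = v * b) → A.relIndex B ≤ f := by
  have hfin : Finite ↥(twistedE6 K q) := inferInstance
  have H := heis hφ hqq cs hq hK
  obtain ⟨x', hx', hx1, hxQ⟩ := opp hφ hqq cs hq hK
  have hrr := rho_root cs
  set t := x φ q rho 1 with ht
  have htX : t ∈ X φ q rho := x_mem hφ hqq hrr (ok_one _)
  have ht1 : t ≠ 1 := fun h => one_ne_zero ((x_eq_one_iff hφ hqq hrr (ok_one _)).1 h)
  have hcj := conj_long hφ hqq cs hrr hrr.neg rho_long (by rw [bf_neg_left, bf_neg_right, neg_neg, rho_long]) htX hx'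
    ht1 hx1
  have hQt : QQ φ q ≤ Subgroup.centralizer ({t} : Set ↥(twistedE6 K q)) := by
    intro c hc
    rw [Subgroup.mem_centralizer_singleton_iff]
    exact (H.zQ htX hc).symm
  obtain ⟨f, h1, h2⟩ := H255.IFK.s13 hA (hl htX) (order_two hφ hqq cs hrr htX ht1) (hl' hx') hcj hQt hxQ
  refine ⟨f, ?_, fun B hB => h1 B fun b hb => ?_⟩
  · by_contra hge
    push Not at hge
    have h3 := h2.trans_le (cent_Z hφ hqq cs hq hK hidx htX)
    rw [card_Q hφ hqq cs hq hK] at h3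
    have h4 : q ^ 4 * (q * (q ^ 10) ^ 2) < 2 * q ^ 21 * q :=
      lt_of_le_of_lt (Nat.mul_le_mul_right _ (Nat.pow_le_pow_left hge 4)) h3
    have h5 : q ^ 4 * (q * (q ^ 10) ^ 2) = q ^ 22 * q ^ 3 := by ring
    have h6 : 2 * q ^ 21 * q = q ^ 22 * 2 := by ring
    rw [h5, h6] at h4
    have h7 : q ^ 3 < 2 := lt_of_mul_lt_mul_left h4 (Nat.zero_le _)
    have h8 : 2 ^ 3 ≤ q ^ 3 := Nat.pow_le_pow_left hq 3
    omega
  · rw [Subgroup.mem_centralizer_singleton_iff]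
    exact hB b hb t htX

include hφ hqq in
/-- **All long root groups in `A`.** -/
theorem all_long (hq : 2 ≤ q) (hK : Fintype.card K = q ^ 2) (hidx : (PP cs φ q).index ≤ 2 * q ^ 21)
    (hA : H255.IFK.Fix A) (hl : ∀ z, IsRoot cs isCartan z → bf z z = 4 → X φ q z ≤ A) : A = ⊤ := by
  have hrr := rho_root cs
  obtain ⟨f, hf, hrel⟩ := f_lt hφ hqq cs hq hK hidx hA (hl _ hrr rho_long)
    (hl _ hrr.neg (by rw [bf_neg_left, bf_neg_right, neg_neg, rho_long]))
  have h1 : ∀ w, IsRoot cs isCartan w → bf w w = 2 → 0 ≤ w 0 → X φ q w ≤ A := fun w hw sw h0 =>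
    short_le hφ hqq cs hq hK hl hw sw hf (hrel _ fun b hb v hv => comm_rho hφ hqq cs hw h0 b hb v hv)
  have h2 : ∀ w, IsRoot cs isCartan w → X φ q w ≤ A := by
    intro w hw
    rcases Cfsg.Agent.KFacts.TwESix.Comb.norm cs hw with lw | sw
    · exact hl w hw lw
    · rcases le_or_gt 0 (w 0) with h0 | h0
      · exact h1 w hw sw h0
      · obtain ⟨h3, h4, h5⟩ := tab_lev w ((mem_rts cs).1 hw) sw h0
        have h6 := h1 _ ((mem_rts cs).2 h3) h4 h5
        intro g hg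
        obtain ⟨b, hb, rfl⟩ := (mem_X hφ hqq hw _).1 hg
        have e : -rho + (w + rho) = w := by abel
        have h7 := down hφ hqq cs hl hrr.neg ((mem_rts cs).2 h3) (by rw [e]; exact hw)
          (by rw [bf_neg_left, bf_neg_right, neg_neg, rho_long]) h4
          (h6 (x_mem hφ hqq ((mem_rts cs).2 h3) (ok_short hφ hqq ((mem_rts cs).2 h3) (st_iff.2 h4) b)))
          (a := 1) (map_one φ)
        rwa [e, one_mul] at h7
  rw [eq_top_iff, ← G1_eq_top cs hφ hqq]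
  exact RGD.Sup_le fun z hz => h2 z hz

end Cfsg.Agent.H441.IF.TE6
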