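import Cfsg.Agent.H441.IF.TE6C

/-!
# S5719, `²E₆(q)`, `q` even: the main theorem from the index of the parabolic subgroup and the representatives (helper441)

* `step` : long roots at angle 60°; `long_all`; `noZ`, `noQ`;
* `main` : `Fix A`, an involution in `A`: `A = ⊤`.
-/

set_option autoImplicit false
set_option linter.unusedSectionVars false
set_option maxHeartbeats 400000

namespace Cfsg.Agent.H441.IF.TE6

open CoxeterSystem Cfsg.Agent.ChevalleyStructure.CoxeterGeom Cfsg.Agent.Tits.Roots Cfsg.Agent.Tits.Core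
  Cfsg.Agent.Tits.RootComb Cfsg.Agent.Nodes.Comb Cfsg.Agent.Nodes.Reps Cfsg.Agent.Nodes.BNOf
  Cfsg.Agent.Nodes.RGDTwGen Cfsg.Agent.Nodes.RGDChev Cfsg.Agent.Nodes.RGDFold
  Cfsg.Agent.Nodes.RGDFoldSL Cfsg.Agent.Nodes.RGDTwE6 Cfsg.Agent.Nodes.RGDTwTab Cfsg.Agent.Nodes.RGDTwCoordE6
  Cfsg.Agent.Nodes.RGDTwCoord Cfsg.Agent.Nodes.RGDTwComE6 Cfsg.Agent.Nodes.RGDTwActE6
  Cfsg.Agent.Nodes.RGDLib Cfsg.Agent.Nodes.Bruhat Cfsg.Agent.Nodes.StabComb Cfsg.Agent.Nodes.LeviDec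
open Cfsg.Lie Cfsg.Agent.ChevalleyStructure
open Cfsg.Agent.KFacts.TwESix.Comb (bf rts mem_rts bf_rep bf_rep_left rho rho_root rho_long bf_rho pairing_eq
  bf_neg_left bf_neg_right two_bf_sr exists_rep_long sr_norm)
open Cfsg.Agent.UGT.U2.FOne Cfsg.Agent.UGT.U2.FOne.TwESix
open Cfsg.Agent.H203.IF.TE6
open Cfsg.Agent.H752.RgdIdx
open scoped commutatorElement Pointwise

theorem tab_path : ∀ r ∈ rts, bf r r = 4 → ∀ s ∈ rts, bf s s = 4 → bf r s ≠ -4 →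
    ∃ t ∈ rts, bf t t = 4 ∧ bf r t = 2 ∧ bf t s = 2 := by decide +kernel

theorem tab_opp : ∀ r ∈ rts, bf r r = 4 → ∃ t ∈ rts, bf t t = 4 ∧ bf r t = 2 := by decide +kernel

theorem tab_neg : ∀ r ∈ rts, bf r r = 4 → ∀ s ∈ rts, bf s s = 4 → bf r s = -4 → s = -r := by decide +kernel

variable {K : Type} [Field K] [Fintype K] {q : ℕ} {φ : K →+* K} (hφ : ∀ x, φ x = x ^ q)
  (hqq : ∀ t : K, (t ^ q) ^ q = t) {W : Type*} [Group W] (cs : CoxeterSystem CoxeterMatrix.F₄ W)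
  {r s : Fin 4 → ℤ} {A : Subgroup ↥(twistedE6 K q)} [CharP K 2]

include hφ hqq cs in
/-- **The step.** -/
theorem step (hq : 2 ≤ q) (hK : Fintype.card K = q ^ 2) (hidx : (PP cs φ q).index ≤ 2 * q ^ 21)
    (hA : H255.IFK.Fix A) (hr : IsRoot cs isCartan r) (hs : IsRoot cs isCartan s) (lr : bf r r = 4) (ls : bf s s = 4)
    (hrs : bf r s = 2) {u : ↥(twistedE6 K q)} (hu : u ∈ X φ q r) (hu1 : u ≠ 1) (huA : u ∈ A) : X φ q s ≤ A := by
  have hfin : Finite ↥(twistedE6 K q) := inferInstance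
  have R := rgd cs hφ hqq 2
  have H := heis hφ hqq cs hq hK
  have hrr := rho_root cs
  obtain ⟨w0, h0⟩ := exists_rep_long cs hs ls
  obtain ⟨w1, h1⟩ := exists_rep_long cs hrr rho_long
  have hv : rep cs isCartan (w1 * w0⁻¹) s = rho := by rw [rep_mul_apply, ← h0, rep_inv_apply, h1]
  obtain ⟨k, hk⟩ := exists_rp cs R.nsys (w1 * w0⁻¹)
  set r' := rep cs isCartan (w1 * w0⁻¹) r with hr'
  have hr'r : IsRoot cs isCartan r' := hr.act _
  have lr' : bf r' r' = 4 := by rw [hr', bf_rep, lr]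
  have hr0 : r' 0 = 1 := by
    have h2 : bf r' rho = 2 := by rw [← hv, hr', bf_rep, hrs]
    rw [bf_rho] at h2
    omega
  have hSS : r' ∈ SS := mem_SS.2 ⟨(mem_rts cs).1 hr'r, hr0⟩
  have ht : k * u * k⁻¹ ∈ X φ q r' := R.conj_mem hk hr hu
  have ht1 : k * u * k⁻¹ ≠ 1 := fun h => hu1 (by
    have : u = k⁻¹ * (k * u * k⁻¹) * k := by group
    rw [this, h]; group)
  have hA' := hA.conj k
  have htA : k * u * k⁻¹ ∈ MulAut.conj k • A := H255.IFK.conj_mem_conj huA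
  have hz1 : x φ q rho 1 ∈ X φ q rho := x_mem hφ hqq hrr (ok_one _)
  have hz2 : x φ q rho 1 ≠ 1 := fun h => one_ne_zero ((x_eq_one_iff hφ hqq hrr (ok_one _)).1 h)
  have htZ : k * u * k⁻¹ ∉ X φ q rho := by
    intro hmem
    obtain ⟨b, hb, hab⟩ := H.surj r' hSS _ ht ht1 _ hz1
    have h2 := H.zx _ hmem (rho - r') (H.mem r' hSS) b hb
    rw [Cfsg.Agent.H203.IF.com_eq_one h2] at hab
    exact hz2 hab.symm
  have hle : X φ q rho ≤ MulAut.conj k • A := by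
    by_contra hcon
    have h3 := H255.IFK.s1 hA' (sp hφ hqq cs hq hK) (card_Z hφ hqq cs hq hK) (card_Q hφ hqq cs hq hK) htA
      (Cfsg.Agent.H203.IF.Heis.X_le hSS ht) htZ (order_two hφ hqq cs hr'r ht ht1)
      (fun z hz hz1 => conj_long hφ hqq cs hr'r hrr lr' rho_long ht hz ht1 hz1) hcon
    rw [H255.IFK.index_centralizer_conj (conj_long hφ hqq cs hr'r hrr lr' rho_long ht hz1 ht1 hz2)] at h3
    have h4 := cent_Z hφ hqq cs hq hK hidx hz1
    have h5 : 16 * (q ^ 10) ^ 5 < q ^ 4 * (2 * q ^ 21 * q) := lt_of_lt_of_le h3 (Nat.mul_le_mul_left _ h4)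
    have h6 : q ^ 4 * (2 * q ^ 21 * q) = 2 * q ^ 26 := by ring
    have h7 : (q ^ 10) ^ 5 = q ^ 26 * q ^ 24 := by ring
    rw [h6, h7] at h5
    have h8 : q ^ 26 ≤ q ^ 26 * q ^ 24 := Nat.le_mul_of_pos_right _ (pow_pos (by omega) _)
    omega
  intro g hg
  have h2 := R.conj_mem hk hs hg
  rw [hv] at h2
  have h3 := hle h2
  rw [H255.IFK.mem_conj] at h3
  have e : k⁻¹ * (k * g * k⁻¹) * k = g := by group
  rwa [e] at h3

include hφ hqq cs in
/-- A long root element in `A`: all long root groups are in `A`. -/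
theorem long_all (hq : 2 ≤ q) (hK : Fintype.card K = q ^ 2) (hidx : (PP cs φ q).index ≤ 2 * q ^ 21)
    (hA : H255.IFK.Fix A) (hr : IsRoot cs isCartan r) (lr : bf r r = 4)
    {u : ↥(twistedE6 K q)} (hu : u ∈ X φ q r) (hu1 : u ≠ 1) (huA : u ∈ A) :
    ∀ s, IsRoot cs isCartan s → bf s s = 4 → X φ q s ≤ A := by
  have key : ∀ r s, IsRoot cs isCartan r → IsRoot cs isCartan s → bf r r = 4 → bf s s = 4 → bf r s ≠ -4 →
      ∀ u ∈ X φ q r, u ≠ 1 → u ∈ A → X φ q s ≤ A := by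
    intro r s hr hs lr ls hrs u hu hu1 huA
    obtain ⟨t, ht', lt, h1, h2⟩ := tab_path r ((mem_rts cs).1 hr) lr s ((mem_rts cs).1 hs) ls hrs
    have ht := (mem_rts cs).2 ht'
    have h3 := step hφ hqq cs hq hK hidx hA hr ht lr lt h1 hu hu1 huA
    exact step hφ hqq cs hq hK hidx hA ht hs lt ls h2 (x_mem hφ hqq ht (ok_one _))
      (fun h => one_ne_zero ((x_eq_one_iff hφ hqq ht (ok_one _)).1 h)) (h3 (x_mem hφ hqq ht (ok_one _)))
  intro s hs ls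
  by_cases h : bf r s = -4
  · have h1 := tab_neg r ((mem_rts cs).1 hr) lr s ((mem_rts cs).1 hs) ls h
    obtain ⟨t, ht', lt, h2⟩ := tab_opp r ((mem_rts cs).1 hr) lr
    have ht := (mem_rts cs).2 ht'
    have h3 := step hφ hqq cs hq hK hidx hA hr ht lr lt h2 hu hu1 huA
    refine key t s ht hs lt ls ?_ _ (x_mem hφ hqq ht (ok_one _))
      (fun h => one_ne_zero ((x_eq_one_iff hφ hqq ht (ok_one _)).1 h)) (h3 (x_mem hφ hqq ht (ok_one _)))
    rw [h1, bf_neg_right, Cfsg.Agent.KFacts.TwESix.Comb.bf_comm, h2]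
    norm_num
  · exact key r s hr hs lr ls h u hu hu1 huA

theorem top_of_conj {G : Type*} [Group G] {A : Subgroup G} {g : G} (h : MulAut.conj g • A = ⊤) : A = ⊤ := by
  rw [Subgroup.eq_top_iff']
  intro x
  have h3 : g * x * g⁻¹ ∈ MulAut.conj g • A := by rw [h]; exact Subgroup.mem_top _
  rw [H255.IFK.mem_conj] at h3
  have e1 : g⁻¹ * (g * x * g⁻¹) * g = x := by group
  rwa [e1] at h3

section Main

variable (hq : 2 ≤ q) (hK : Fintype.card K = q ^ 2) (hidx : (PP cs φ q).index ≤ 2 * q ^ 21)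
  (hA : H255.IFK.Fix A) (hne : A ≠ ⊤)

include hφ hqq cs hq hK hidx hA hne

theorem noZ (g : ↥(twistedE6 K q)) : (MulAut.conj g • A) ⊓ X φ q rho = ⊥ := by
  rw [Subgroup.eq_bot_iff_forall]
  rintro u ⟨huA, hu⟩
  by_contra hu1
  have hA' := hA.conj g
  have h1 := long_all hφ hqq cs hq hK hidx hA' (rho_root cs) rho_long hu hu1 huA
  exact hne (top_of_conj (all_long hφ hqq cs hq hK hidx hA' h1))

theorem noQ (g : ↥(twistedE6 K q)) : (MulAut.conj g • A) ⊓ QQ φ q = ⊥ := by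
  have hfin : Finite ↥(twistedE6 K q) := inferInstance
  have hrr := rho_root cs
  have hA' := hA.conj g
  have hZ := noZ hφ hqq cs hq hK hidx hA hne g
  have hz1 : x φ q rho 1 ∈ X φ q rho := x_mem hφ hqq hrr (ok_one _)
  have hz2 : x φ q rho 1 ≠ 1 := fun h => one_ne_zero ((x_eq_one_iff hφ hqq hrr (ok_one _)).1 h)
  have hcQ := card_Q hφ hqq cs hq hK
  have hcZ := card_Z hφ hqq cs hq hK
  have hZA : ¬ X φ q rho ≤ MulAut.conj g • A := by
    intro h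
    have h1 : x φ q rho 1 ∈ (MulAut.conj g • A ⊓ X φ q rho : Subgroup ↥(twistedE6 K q)) := ⟨h hz1, hz1⟩
    rw [hZ, Subgroup.mem_bot] at h1
    exact hz2 h1
  by_contra hcon
  have hex : ∃ t ∈ (MulAut.conj g • A ⊓ QQ φ q : Subgroup ↥(twistedE6 K q)), orderOf t = 2 := by
    have h1 : 1 < Nat.card (MulAut.conj g • A ⊓ QQ φ q : Subgroup ↥(twistedE6 K q)) := by
      have := Nat.card_pos (α := (MulAut.conj g • A ⊓ QQ φ q : Subgroup ↥(twistedE6 K q)))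
      rcases Nat.lt_or_ge 1 (Nat.card (MulAut.conj g • A ⊓ QQ φ q : Subgroup ↥(twistedE6 K q))) with h | h
      · exact h
      · have h5 : Nat.card (MulAut.conj g • A ⊓ QQ φ q : Subgroup ↥(twistedE6 K q)) = 1 := by omega
        exact absurd ((Subgroup.card_eq_one).1 h5) hcon
    have h2 : Nat.card (MulAut.conj g • A ⊓ QQ φ q : Subgroup ↥(twistedE6 K q)) ∣ Nat.card (QQ φ q) :=
      Subgroup.card_dvd_of_le inf_le_right
    obtain ⟨f, -, hf⟩ := FiniteField.card K 2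
    have h21 : Nat.card (QQ φ q) ∣ 2 ^ ((f : ℕ) * 21) := by
      rw [hcQ, pow_mul, ← hf, hK]
      exact ⟨q ^ 21, by ring⟩
    obtain ⟨j, -, hj⟩ := (Nat.dvd_prime_pow Nat.prime_two).1 (h2.trans h21)
    have h4 : 2 ∣ Nat.card (MulAut.conj g • A ⊓ QQ φ q : Subgroup ↥(twistedE6 K q)) := by
      rw [hj] at h1 ⊢
      rcases j with _ | j
      · omega
      · exact dvd_pow_self 2 (Nat.succ_ne_zero j)
    have : Fact (Nat.Prime 2) := ⟨Nat.prime_two⟩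
    obtain ⟨t, ht⟩ := exists_prime_orderOf_dvd_card' 2 h4
    exact ⟨t, t.2, by rw [Subgroup.orderOf_coe, ht]⟩
  obtain ⟨t, ⟨htA, htQ⟩, ho⟩ := hex
  have h1 := H255.IFK.s2 hA' (sp hφ hqq cs hq hK) (n := q ^ 10) (w := 1) hcZ hcZ hcQ
    (by rw [hZ, Subgroup.card_bot]) hZA htA htQ ho
  have h2 := cent_Q hφ hqq cs hq hK hidx htQ
  have h3 : (q * q ^ 10) ^ 5 < (q * 1) ^ 5 * (2 * q ^ 21 * (q * (q ^ 10) ^ 2)) :=
    lt_of_lt_of_le h1 (Nat.mul_le_mul_left _ h2)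
  have h4 : (q * q ^ 10) ^ 5 = q ^ 47 * q ^ 8 := by ring
  have h5 : (q * 1) ^ 5 * (2 * q ^ 21 * (q * (q ^ 10) ^ 2)) = q ^ 47 * 2 := by ring
  rw [h4, h5] at h3
  have h6 : q ^ 8 < 2 := lt_of_mul_lt_mul_left h3 (Nat.zero_le _)
  have h7 : 2 ^ 8 ≤ q ^ 8 := Nat.pow_le_pow_left hq 8
  omega

end Main

include hφ hqq cs in
/-- **The main theorem.** -/
theorem main (hq : 2 ≤ q) (hK : Fintype.card K = q ^ 2) (hidx : (PP cs φ q).index ≤ 2 * q ^ 21)
    (hrep : ∀ t : ↥(twistedE6 K q), t * t = 1 → ∃ g, g * t * g⁻¹ ∈ VJ cs isCartan (X φ q) (orth cs isCartan rho))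
    (hA : H255.IFK.Fix A) {t : ↥(twistedE6 K q)} (ht : t ∈ A) (ho : orderOf t = 2) : A = ⊤ := by
  by_contra hne
  have htt : t * t = 1 := by
    have h1 := pow_orderOf_eq_one t
    rwa [ho, pow_two] at h1
  obtain ⟨g, hg⟩ := hrep t htt
  rw [← QQ_eq cs] at hg
  have h1 : g * t * g⁻¹ ∈ (MulAut.conj g • A ⊓ QQ φ q : Subgroup ↥(twistedE6 K q)) :=
    ⟨H255.IFK.conj_mem_conj ht, hg⟩
  rw [noQ hφ hqq cs hq hK hidx hA hne g, Subgroup.mem_bot] at h1
  have h2 : t = 1 := by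
    have : t = g⁻¹ * (g * t * g⁻¹) * g := by group
    rw [this, h1]; group
  rw [h2, orderOf_one] at ho
  omega

end Cfsg.Agent.H441.IF.TE6
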