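import Cfsg.Agent.H441.IF.TE6D
import Cfsg.Agent.H430.CfChev

/-!
# S5719, `²E₆(q)`, `q` even: the index of the parabolic subgroup (helper441)
-/

set_option autoImplicit false
set_option linter.unusedSectionVars false
set_option maxHeartbeats 400000

namespace Cfsg.Agent.H441.IF.TE6

open CoxeterSystem Cfsg.Agent.ChevalleyStructure.CoxeterGeom Cfsg.Agent.Tits.Roots Cfsg.Agent.Tits.Core
  Cfsg.Agent.Tits.RootComb Cfsg.Agent.Nodes.Comb Cfsg.Agent.Nodes.Reps Cfsg.Agent.Nodes.BNOf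
  Cfsg.Agent.Nodes.RGDTwGen Cfsg.Agent.Nodes.RGDChev Cfsg.Agent.Nodes.RGDFold
  Cfsg.Agent.Nodes.RGDFoldSL Cfsg.Agent.Nodes.RGDTwE6 Cfsg.Agent.Nodes.RGDTwTab Cfsg.Agent.Nodes.RGDTwCoordE6
  Cfsg.Agent.Nodes.RGDTwCoord Cfsg.Agent.Nodes.RGDTwComE6 Cfsg.Agent.Nodes.RGDTwActE6
  Cfsg.Agent.Nodes.RGDLib Cfsg.Agent.Nodes.Bruhat Cfsg.Agent.Nodes.StabComb Cfsg.Agent.Nodes.LeviDec
open Cfsg.Lie Cfsg.Agent.ChevalleyStructure
open Cfsg.Agent.KFacts.TwESix.Comb (bf rts mem_rts rho rho_root rho_long pairing_eq)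
open Cfsg.Agent.UGT.U2.FOne Cfsg.Agent.UGT.U2.FOne.TwESix
open Cfsg.Agent.H203.IF.TE6
open Cfsg.Agent.H752.RgdIdx

/-- look up in a table -/
def look (tab : List ((Fin 4 → ℤ) × ℕ)) (r : Fin 4 → ℤ) : ℕ :=
  ((tab.find? fun p => p.1 = r).map Prod.snd).getD 0

/-- weighted distances from the highest root -/
def tabE : List ((Fin 4 → ℤ) × ℕ) :=
  [(![2, 3, 4, 2], 0), (![1, 3, 4, 2], 1), (![1, 2, 4, 2], 2), (![1, 2, 2, 2], 4), (![1, 1, 2, 2], 5),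
  (![0, 1, 2, 2], 6), (![1, 2, 2, 0], 6), (![1, 1, 2, 0], 7), (![0, 1, 2, 0], 8), (![1, 1, 0, 0], 9),
  (![0, 1, 0, 0], 10), (![1, 0, 0, 0], 10), (![-1, 0, 0, 0], 11), (![0, -1, 0, 0], 11), (![-1, -1, 0, 0], 12),
  (![0, -1, -2, 0], 13), (![-1, -1, -2, 0], 14), (![-1, -2, -2, 0], 15), (![0, -1, -2, -2], 15),
  (![-1, -1, -2, -2], 16), (![-1, -2, -2, -2], 17), (![-1, -2, -4, -2], 19), (![-1, -3, -4, -2], 20),
  (![-2, -3, -4, -2], 21)]

theorem distE : DistOk A ![1, 1, 2, 2] rho (tabE.map Prod.fst) (look tabE) := by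
  constructor <;> decide +kernel

theorem domE : Dom A rho := by
  show ∀ i, 0 ≤ pairing A i rho
  decide +kernel

variable {K : Type} [Field K] [Fintype K] {q : ℕ} {φ : K →+* K} (hφ : ∀ x, φ x = x ^ q)
  (hqq : ∀ t : K, (t ^ q) ^ q = t) {W : Type*} [Group W] (cs : CoxeterSystem CoxeterMatrix.F₄ W) [CharP K 2]

theorem ee_sr : ∀ i : Fin 4, ee (sr i) = (![1, 1, 2, 2] : Fin 4 → ℕ) i := by decide +kernel

include hφ hqq in
/-- **The index.** -/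
theorem index_PP (hq : 2 ≤ q) (hK : Fintype.card K = q ^ 2) : (PP cs φ q).index ≤ 2 * q ^ 21 := by
  have hW : Finite W := Cfsg.Agent.KFacts.TwESix.Comb.finiteW cs
  have R := rgd cs hφ hqq 2
  have hG := GG_top (cs := cs) φ hφ hqq
  have hfG : Finite ↥(twistedE6 K q) := inferInstance
  have hX : ∀ i, Nat.card ↥(X φ q (sr i)) = q ^ (![1, 1, 2, 2] : Fin 4 → ℕ) i := by
    intro i
    rw [card_root hφ hqq cs hq hK (isRoot_sr cs isCartan i), ee_sr]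
  refine (index_PJ_le R hG (by omega) (e := ![1, 1, 2, 2]) (by decide) hX domE distE).trans ?_
  have h1 : ((tabE.map Prod.fst).map fun r => q ^ look tabE r) =
      [0, 1, 2, 4, 5, 6, 6, 7, 8, 9, 10, 10, 11, 11, 12, 13, 14, 15, 15, 16, 17, 19, 20, 21].map fun x => q ^ x := by
    rw [show [0, 1, 2, 4, 5, 6, 6, 7, 8, 9, 10, 10, 11, 11, 12, 13, 14, 15, 15, 16, 17, 19, 20, 21] =
      (tabE.map Prod.fst).map (look tabE) by decide +kernel, List.map_map]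
    rfl
  rw [h1]
  exact (Cfsg.Agent.H430.CfChev.sum_le hq _ 21 (by decide)).trans (Nat.mul_le_mul_right _ (by decide +kernel))

end Cfsg.Agent.H441.IF.TE6
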