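import Cfsg.Agent.H441.IF.TE6E
import Cfsg.Agent.H83.TwESix
import Cfsg.Agent.H209.IF.Kill

/-!
# S5719, cell `te6_even`: `KillE (twistedE6 K q)`, `q` even (helper441)
-/

set_option autoImplicit false
set_option linter.unusedSectionVars false
set_option maxHeartbeats 400000

namespace Cfsg.Agent.H441.IF.TE6

open CoxeterSystem Cfsg.Agent.ChevalleyStructure.CoxeterGeom Cfsg.Agent.Tits.Roots Cfsg.Agent.Tits.Core
  Cfsg.Agent.Tits.RootComb Cfsg.Agent.Nodes.Comb Cfsg.Agent.Nodes.Reps Cfsg.Agent.Nodes.BNOf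
  Cfsg.Agent.Nodes.RGDTwGen Cfsg.Agent.Nodes.RGDChev Cfsg.Agent.Nodes.RGDFold
  Cfsg.Agent.Nodes.RGDFoldSL Cfsg.Agent.Nodes.RGDTwE6 Cfsg.Agent.Nodes.RGDTwTab Cfsg.Agent.Nodes.RGDTwCoordE6
  Cfsg.Agent.Nodes.RGDTwCoord Cfsg.Agent.Nodes.RGDTwComE6 Cfsg.Agent.Nodes.RGDTwActE6
  Cfsg.Agent.Nodes.RGDLib Cfsg.Agent.Nodes.Bruhat Cfsg.Agent.Nodes.StabComb Cfsg.Agent.Nodes.LeviDec
open Cfsg.Lie Cfsg.Agent.ChevalleyStructure
open Cfsg.Agent.ChevalleyStructure.TwE6Basic (sg twisted_le_fix exists_frob)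
open Cfsg.Agent.ChevalleyStructure.TwE6BN (rs rs_le x_mem_rs)
open Cfsg.Agent.KFacts.TwESix.Comb (bf rts mem_rts rho rho_root rho_long pairing_eq)
open Cfsg.Agent.H209.Fxy (IF KillE)
open Cfsg.Agent.H83.ChevInv (PX PX_cons PX_nil)

theorem cls71 : ∀ k < chevE6.nroots, (V chevE6 J k = rho ↔ k ∈ [71]) := by decide +kernel
theorem cls68 : ∀ k < chevE6.nroots, (V chevE6 J k = ![1, 2, 3, 2] ↔ k ∈ [68, 66]) := by decide +kernel
theorem cls53 : ∀ k < chevE6.nroots, (V chevE6 J k = ![1, 2, 2, 0] ↔ k ∈ [53]) := by decide +kernel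
theorem lt71 : ∀ k ∈ [71], k < chevE6.nroots := by decide +kernel
theorem lt68 : ∀ k ∈ [68, 66], k < chevE6.nroots := by decide +kernel
theorem lt53 : ∀ k ∈ [53], k < chevE6.nroots := by decide +kernel

variable {K : Type} [Field K] [Fintype K] {q : ℕ} {φ : K →+* K} (hφ : ∀ x, φ x = x ^ q)
  (hqq : ∀ t : K, (t ^ q) ^ q = t) {W : Type*} [Group W] (cs : CoxeterSystem CoxeterMatrix.F₄ W) [CharP K 2]

include hφ hqq in
theorem mem_X_of {z : Fin 4 → ℤ} {L : List ℕ} (hL : ∀ k < chevE6.nroots, (V chevE6 J k = z ↔ k ∈ L))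
    (hlt : ∀ k ∈ L, k < chevE6.nroots) {g : ↥(twistedE6 K q)} (hg : (g : GL chevE6.Idx K) ∈ rs K L) :
    g ∈ X φ q z := by
  show (g : GL chevE6.Idx K) ∈ R chevE6 hp K J (sg φ) z
  rw [R_eq hL hlt, rspan_eq]
  exact ⟨hg, twisted_le_fix φ hφ hqq g.2⟩

include hφ hqq in
/-- **Every involution is conjugate into `Q`.** -/
theorem rep_Q (hK : Fintype.card K = q ^ 2) (t : ↥(twistedE6 K q)) (ht : t * t = 1) :
    ∃ g, g * t * g⁻¹ ∈ VJ cs isCartan (X φ q) (orth cs isCartan rho) := by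
  have h71 : X φ q rho ≤ QQ φ q := X_le_QQ cs (rho_root cs) (by decide)
  have h68 : X φ q ![1, 2, 3, 2] ≤ QQ φ q := X_le_QQ cs ((mem_rts cs).2 (by decide +kernel)) (by decide)
  have h53 : X φ q ![1, 2, 2, 0] ≤ QQ φ q := X_le_QQ cs ((mem_rts cs).2 (by decide +kernel)) (by decide)
  rw [← QQ_eq cs]
  rcases Cfsg.Agent.H83.TwESix.exists_rep hK t.2 (congrArg Subtype.val ht) with h1 | ⟨L, hL, g, hg, e⟩
  · refine ⟨1, ?_⟩
    have : t = 1 := Subtype.ext h1
    rw [this, mul_one, one_mul, inv_one]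
    exact one_mem _
  · have hmem := Cfsg.Agent.H83.TwESix.reps_mem (K := K) (q := q) hK L hL
    refine ⟨⟨g, hg⟩, ?_⟩
    have e' : (⟨g, hg⟩ : ↥(twistedE6 K q)) * t * (⟨g, hg⟩ : ↥(twistedE6 K q))⁻¹ = ⟨PX hp.inList K L, hmem⟩ :=
      Subtype.ext e
    rw [e']
    have hx : ∀ (L : List ℕ) (r : ℕ), r ∈ L → Elts.xG hp.inList r (1 : K) ∈ rs K L := fun L r hr => x_mem_rs hr 1
    have hP2 : PX hp.inList K [68, 66] ∈ rs K [68, 66] := by
      rw [PX_cons, PX_cons, PX_nil, mul_one]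
      exact mul_mem (hx _ _ (by simp)) (hx _ _ (by simp))
    have hmem2 : PX hp.inList K [68, 66] ∈ twistedE6 K q := by
      have h1 := Cfsg.Agent.H83.TwESix.reps_mem (K := K) (q := q) hK [66, 68] (by
        simp [Cfsg.Agent.H83.TwESix.reps])
      have h5 : PX hp.inList K [66, 68] = PX hp.inList K [68, 66] :=
        Cfsg.Agent.H83.OrthRed.PX_perm ⟨by decide +kernel, by decide +kernel⟩ (List.isPerm_iff.1 (by decide +kernel))
      rwa [← h5]
    simp only [Cfsg.Agent.H83.TwESix.reps, List.mem_cons, List.not_mem_nil, or_false] at hL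
    rcases hL with rfl | rfl | rfl
    · refine h71 (mem_X_of hφ hqq cls71 lt71 ?_)
      show PX hp.inList K [71] ∈ rs K [71]
      rw [PX_cons, PX_nil, mul_one]
      exact hx _ _ (by simp)
    · refine h68 (mem_X_of hφ hqq cls68 lt68 ?_)
      show PX hp.inList K [66, 68] ∈ rs K [68, 66]
      rw [PX_cons, PX_cons, PX_nil, mul_one]
      exact mul_mem (hx _ _ (by simp)) (hx _ _ (by simp))
    · have e1 : PX hp.inList K [53, 68, 66] = Elts.xG hp.inList 53 1 * PX hp.inList K [68, 66] := PX_cons _ _ _ _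
      have h53m : Elts.xG hp.inList 53 (1 : K) ∈ twistedE6 K q := by
        rw [e1] at hmem
        exact (Subgroup.mul_mem_cancel_right _ hmem2).1 hmem
      have e2 : (⟨PX hp.inList K [53, 68, 66], hmem⟩ : ↥(twistedE6 K q)) =
          ⟨Elts.xG hp.inList 53 1, h53m⟩ * ⟨PX hp.inList K [68, 66], hmem2⟩ := Subtype.ext e1
      rw [e2]
      exact mul_mem (h53 (mem_X_of hφ hqq cls53 lt53 (hx _ _ (by simp)))) (h68 (mem_X_of hφ hqq cls68 lt68 hP2))

/-- **The cell.** -/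
theorem te6_even : ∀ (K : Type) [Field K] [Fintype K] (q : ℕ), IsPrimePow q → Fintype.card K = q ^ 2 → Even q →
    IsSimpleGroup (twistedE6 K q) → KillE (twistedE6 K q) := by
  intro K _ _ q hq hK he hs A Γ h hex
  obtain ⟨t, ht, ho⟩ := hex
  obtain ⟨φ, hφ, hqq⟩ := exists_frob hq hK
  have hc : CharP K 2 := by
    obtain ⟨p, hp⟩ := CharP.exists K
    obtain ⟨n, hpp, hn⟩ := FiniteField.card K p
    have h1 : 2 ∣ Fintype.card K := by rw [hK]; exact dvd_pow he.two_dvd (by norm_num)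
    rw [hn] at h1
    have h2 : 2 = p := (Nat.prime_dvd_prime_iff_eq Nat.prime_two hpp).1 (Nat.prime_two.dvd_of_dvd_pow h1)
    rw [h2]; exact hp
  have hfin : Finite ↥(twistedE6 K q) := inferInstance
  have hna : ∃ a b : ↥(twistedE6 K q), a * b ≠ b * a := by
    by_contra hcon
    push Not at hcon
    apply (Cfsg.Agent.S1070.result hq hK).2
    exact ⟨⟨hcon⟩⟩
  refine h.ne_top ?_
  exact main hφ hqq CoxeterMatrix.F₄.toCoxeterSystem hq.two_le hK (index_PP hφ hqq _ hq.two_le hK)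
    (rep_Q hφ hqq _ hK) (H255.IFK.fix_of_IF h hna) ht ho

end Cfsg.Agent.H441.IF.TE6
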